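import Cfsg.Agent.H924.M23.Tab

/-!
# (M,23) of S4929: soundness of the test of one pair (helper924)
-/

set_option autoImplicit false

namespace Cfsg.Agent.H924.M23

theorem chkz_sound {d b13 n1 zm za : ℕ} (h : chkz d b13 n1 zm za = true) {e : ℕ × ℕ × ℕ} (he : e ∈ T13)
    (hy : e.2.1 = b13) (hx : (d + 948 * zm + 1248 * e.1) % 2197 = 0) :
    882192168 < n1 * 8911032 + e.2.2 * 6380088 + za * za * 20449 := by
  unfold chkz at h
  rw [List.all_eq_true] at h
  have h1 := h e he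
  simp only [Bool.or_eq_true, Bool.not_eq_true'] at h1
  rcases h1 with (h1 | h1) | h1
  · rw [hy, Nat.beq_refl] at h1
    exact absurd h1 (by decide)
  · rw [hx] at h1
    exact absurd h1 (by decide)
  · by_contra h2
    push_neg at h2
    rw [Nat.ble_eq_true_of_le h2] at h1
    exact absurd h1 (by decide)

theorem sq_bd {z : ℤ} (h : z ^ 2 * 20449 ≤ 882192168) : -207 ≤ z ∧ z ≤ 207 := by
  constructor <;> nlinarith

/-- the `13`-section gives a member of the table -/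
theorem sec13_mem {d b n z : ℤ} (hs : Sec13 d b n z) (hn : n ≤ 138) : ∃ x : ℤ, (2197 : ℤ) ∣ d + 948 * z + 1248 * x ∧
    ∃ e ∈ T13, (e.1 : ℤ) = x % 169 ∧ (e.2.1 : ℤ) = b % 13 ∧ (e.2.2 : ℤ) ≤ n := by
  obtain ⟨h1, x, h2, h3⟩ := hs
  refine ⟨x, h2, ?_⟩
  rcases h3 with ⟨a₁, a₂, a₃, h4, h5, h6⟩ | ⟨k, h4, h5, h6⟩ | ⟨k, h4, h5, h6⟩ | ⟨k, h4, h5, h6⟩ | ⟨k, h4, h5, h6⟩
  · obtain ⟨e, he, h7, h8, h9⟩ := T13_a (a₁ := a₁) (a₂ := a₂) (a₃ := a₃) (by omega)
    refine ⟨e, he, by rw [h7, h4], ?_, by rw [h6]; exact h9⟩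
    rw [h8]
    omega
  · have hk := sq_le3 (a := k) (by omega)
    obtain ⟨e, he, h7, h8, h9⟩ := T13_d (l := 3) boxd1_ok (k := k) (by omega)
    refine ⟨e, he, by rw [h7, h4]; rfl, ?_, by rw [h6]; exact_mod_cast h9⟩
    rw [h8]
    push_cast
    omega
  · have hk := sq_le3 (a := k) (by omega)
    obtain ⟨e, he, h7, h8, h9⟩ := T13_d (l := 3) boxd2_ok (k := k) (by omega)
    refine ⟨e, he, by rw [h7, h4]; rfl, ?_, by rw [h6]; exact_mod_cast h9⟩
    rw [h8]
    push_cast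
    omega
  · have hk := sq_le3 (a := k) (by omega)
    obtain ⟨e, he, h7, h8, h9⟩ := T13_d (l := 3) boxd3_ok (k := k) (by omega)
    refine ⟨e, he, by rw [h7, h4]; rfl, ?_, by rw [h6]; exact_mod_cast h9⟩
    rw [h8]
    push_cast
    omega
  · have hk := sq_le4 (a := k) (by omega)
    obtain ⟨e, he, h7, h8, h9⟩ := T13_d (l := 4) boxd4_ok (k := k) (by omega)
    refine ⟨e, he, by rw [h7, h4]; rfl, ?_, by rw [h6]; exact_mod_cast h9⟩
    rw [h8]
    push_cast
    omega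

theorem sec13_nonneg {d b n z : ℤ} (hs : Sec13 d b n z) : 0 ≤ n := by
  obtain ⟨h1, x, h2, h3⟩ := hs
  rcases h3 with ⟨a₁, a₂, a₃, h4, h5, h6⟩ | ⟨k, h4, h5, h6⟩ | ⟨k, h4, h5, h6⟩ | ⟨k, h4, h5, h6⟩ | ⟨k, h4, h5, h6⟩
  · rw [h6]; exact N13_nonneg _ _ _
  all_goals rw [h6]; positivity

theorem chk13_sound {d b13 n1 : ℕ} {b n z : ℤ} (h : chk13 d b13 n1 = true) (hb : (b13 : ℤ) = b % 13)
    (hs : Sec13 d b n z) (hN : n1 * 8911032 + n * 6380088 + z ^ 2 * 20449 ≤ 882192168) : False := by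
  have hn := sec13_nonneg hs
  have hz := sq_bd (z := z) (by nlinarith)
  have hn1 : n ≤ 138 := by nlinarith [sq_nonneg z]
  obtain ⟨x, h2, e, he, h3, h4, h5⟩ := sec13_mem hs hn1
  have h1 := hs.1
  unfold chk13 at h
  simp only [Bool.and_eq_true] at h
  obtain ⟨ha, hb1, hc, hd⟩ := h
  have hbe : e.2.1 = b13 := by omega
  obtain ⟨q, hq⟩ := h1
  obtain ⟨q2, hq2⟩ := h2
  have key : ∀ zm za : ℕ, chkz d b13 n1 zm za = true → ((zm : ℤ) = z ∨ (zm : ℤ) = 2197 + z) → (za : ℤ) ^ 2 = z ^ 2 →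
      False := by
    intro zm za hk hzm hza
    have h6 := chkz_sound hk he hbe (by omega)
    have h7 : ((za * za : ℕ) : ℤ) = z ^ 2 := by rw [← hza]; push_cast; ring
    have h8 : (882192168 : ℤ) < n1 * 8911032 + e.2.2 * 6380088 + (za * za : ℕ) * 20449 := by exact_mod_cast h6
    rw [h7] at h8
    nlinarith
  rcases (by omega : z = ((d % 169 : ℕ) : ℤ) ∨ z = ((d % 169 : ℕ) : ℤ) - 169 ∨
      (z = ((d % 169 : ℕ) : ℤ) + 169 ∧ d % 169 ≤ 38) ∨ (z = ((d % 169 : ℕ) : ℤ) - 338 ∧ 131 ≤ d % 169)) with h6 | h6 | ⟨h6, h7⟩ | ⟨h6, h7⟩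
  · exact key _ _ ha (Or.inl h6.symm) (by rw [h6])
  · refine key _ _ hb1 (Or.inr (by omega)) ?_
    have : ((169 - d % 169 : ℕ) : ℤ) = -z := by omega
    rw [this]; ring
  · rw [if_pos h7] at hc
    exact key _ _ hc (Or.inl (by omega)) (by rw [h6]; push_cast; ring)
  · rw [if_pos h7] at hd
    refine key _ _ hd (Or.inr (by omega)) ?_
    have : ((338 - d % 169 : ℕ) : ℤ) = -z := by omega
    rw [this]; ring

theorem chk11_sound {d b13 d121 b11 : ℕ} {w11 : Bool} {c b w n₁ n z : ℤ} (h : chk11 d b13 d121 b11 w11 = true)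
    (hc : c = 1 ∨ c = -1) (hb : (b13 : ℤ) = b % 13) (h121 : (d121 : ℤ) = (c * d) % 121) (h11 : (b11 : ℤ) = (c * b) % 11)
    (hw : (11 : ℤ) ∣ w → w11 = true) (hs1 : Sec11 c d b w n₁) (hs : Sec13 d b n z)
    (hN : n₁ * 8911032 + n * 6380088 + z ^ 2 * 20449 ≤ 882192168) : False := by
  have hn := sec13_nonneg hs
  unfold chk11 at h
  rw [Bool.and_eq_true] at h
  obtain ⟨ha, hd⟩ := h
  rcases hs1 with ⟨a₁, a₂, a₃, a₄, a₅, h1, h2, h3, h4, h5, h6⟩ | ⟨h6, h7⟩
  · have hN1 : N11 a₁ a₂ a₃ a₄ a₅ ≤ 99 := by nlinarith [sq_nonneg z]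
    obtain ⟨e, he, h8, h9, h10⟩ := T11_mem hc h1 h2 hN1
    rw [if_pos (hw h5), List.all_eq_true] at ha
    have h11' := ha e he
    simp only [Bool.or_eq_true, Bool.not_eq_true'] at h11'
    have e1 : e.1 = d121 := by
      have : (e.1 : ℤ) = d121 := by
        rw [h8, h121]
        obtain ⟨q, hq⟩ := h3
        rcases hc with rfl | rfl <;> omega
      exact_mod_cast this
    have e2 : e.2.1 = b11 := by
      have : (e.2.1 : ℤ) = b11 := by
        rw [h9, h11]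
        obtain ⟨q, hq⟩ := h4
        rcases hc with rfl | rfl <;> omega
      exact_mod_cast this
    rcases h11' with (h12 | h12) | h12
    · rw [e1, Nat.beq_refl] at h12
      exact absurd h12 (by decide)
    · rw [e2, Nat.beq_refl] at h12
      exact absurd h12 (by decide)
    · exact chk13_sound h12 hb hs (by rw [h10, ← h6]; exact hN)
  · rw [List.all_eq_true] at hd
    have key : ∀ e : ℕ × ℕ, e ∈ ((66, 6) :: (22, 1) :: (55, 7) :: ([] : List (ℕ × ℕ))) → e.1 = d121 → e.2 = b11 → False := by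
      intro e he e1 e2
      have h12 := hd e he
      simp only [Bool.or_eq_true, Bool.not_eq_true'] at h12
      rcases h12 with (h12 | h12) | h12
      · rw [e1, Nat.beq_refl] at h12
        exact absurd h12 (by decide)
      · rw [e2, Nat.beq_refl] at h12
        exact absurd h12 (by decide)
      · exact chk13_sound h12 hb hs (by rw [h6] at hN; exact_mod_cast hN)
    rcases h7 with ⟨⟨q, hq⟩, ⟨r, hr⟩⟩ | ⟨⟨q, hq⟩, ⟨r, hr⟩⟩ | ⟨⟨q, hq⟩, ⟨r, hr⟩⟩
    · refine key (66, 6) (by simp) ?_ ?_ <;> rcases hc with rfl | rfl <;> simp only <;> omega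
    · refine key (22, 1) (by simp) ?_ ?_ <;> rcases hc with rfl | rfl <;> simp only <;> omega
    · refine key (55, 7) (by simp) ?_ ?_ <;> rcases hc with rfl | rfl <;> simp only <;> omega

/-- the sign -/
def sg (neg : Bool) (x : ℤ) : ℤ := if neg then -x else x

theorem ng_eq {q r : ℕ} (hq : 0 < q) (neg : Bool) : ((ng q r neg : ℕ) : ℤ) = sg neg r % q := by
  cases neg
  · simp [ng, sg]
  · simp only [ng, sg, if_true]
    have h1 : r % q < q := Nat.mod_lt _ hq
    have h2 := Nat.div_add_mod r q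
    by_cases h0 : r % q = 0
    · rw [h0, Nat.sub_zero, Nat.mod_self]
      symm
      rw [Nat.cast_zero]
      apply Int.emod_eq_zero_of_dvd
      rw [dvd_neg]
      exact_mod_cast Nat.dvd_of_mod_eq_zero h0
    · rw [Nat.mod_eq_of_lt (by omega)]
      have h3 : (-(r : ℤ)) = ((q - r % q : ℕ) : ℤ) + q * (-(r / q : ℕ) - 1) := by
        have : ((q - r % q : ℕ) : ℤ) = q - (r % q : ℕ) := by omega
        rw [this]
        have h4 : (r : ℤ) = q * (r / q : ℕ) + (r % q : ℕ) := by exact_mod_cast h2.symm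
        rw [show (-(r:ℤ)) = -(q * (r / q : ℕ) + (r % q : ℕ) : ℤ) by rw [← h4]]
        ring
      rw [h3, Int.add_mul_emod_self_left]
      symm
      apply Int.emod_eq_of_lt (by positivity)
      omega

theorem chk_sound {d n u : ℕ} {cn neg : Bool} {s : ℕ} (h : chk d n u cn neg s = true) {n₁ m z : ℤ}
    (hs1 : Sec11 (sg cn 1) d (sg neg (n * s : ℕ)) (sg neg (u * s : ℕ)) n₁) (hs : Sec13 d (sg neg (n * s : ℕ)) m z)
    (hN : n₁ * 8911032 + m * 6380088 + z ^ 2 * 20449 ≤ 882192168) :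
    d = 77316619273928125000 ∧ n * s = 11487099325000 ∧ neg = false ∧ cn = false := by
  unfold chk at h
  rw [Bool.or_eq_true] at h
  rcases h with h | h
  · simp only [Bool.and_eq_true, Bool.not_eq_true'] at h
    exact ⟨Nat.eq_of_beq_eq_true h.1.1.1, Nat.eq_of_beq_eq_true h.1.1.2, h.1.2, h.2⟩
  · exfalso
    refine chk11_sound h (c := sg cn 1) (w := sg neg (u * s : ℕ)) ?_ (ng_eq (by norm_num) neg) ?_ ?_ ?_ hs1 hs hN
    · cases cn <;> simp [sg]
    · rw [ng_eq (by norm_num)]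
      congr 1
      cases cn <;> simp [sg]
    · rw [ng_eq (by norm_num)]
      congr 1
      cases cn <;> cases neg <;> simp [sg]
    · intro h11
      have h12 : (11 : ℤ) ∣ ((u * s : ℕ) : ℤ) := by
        cases neg
        · exact h11
        · exact (dvd_neg.1 h11)
      have h13 : u * s % 11 = 0 := Nat.mod_eq_zero_of_dvd (by exact_mod_cast h12)
      rw [h13]
      rfl

end Cfsg.Agent.H924.M23
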