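import Cfsg.Agent.H924.M23.Ref

/-!
# (M,23) of S4929: the facts and the test of one degree (helper924)
-/

set_option autoImplicit false
set_option maxRecDepth 10000

namespace Cfsg.Agent.H924.M23

theorem nA_eq : (nA : ℤ) = cA := rfl

theorem mem_rs {q r s : ℕ} (h : (r, s) ∈ tys q) : s ∈ rs q r := by
  unfold rs
  rw [List.mem_map]
  exact ⟨(r, s), List.mem_filter.2 ⟨h, Nat.beq_refl r⟩, rfl⟩

theorem ty_rs {q : ℕ} (hq : 0 < q) {d : ℕ} {b r s : ℤ} (h : Ty q d b r s)
    (h1 : ((r % q).toNat, (s % q).toNat) ∈ tys q) (h2 : ((-r % q).toNat, (-s % q).toNat) ∈ tys q) :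
    ∃ x ∈ rs q (d % q), b % q = (x : ℤ) := by
  have hq' : (q : ℤ) ≠ 0 := by exact_mod_cast hq.ne'
  rcases h with ⟨h3, h4⟩ | ⟨h3, h4⟩
  · have h5 : (d : ℤ) % q = r % q := (Int.ModEq.symm (Int.modEq_iff_dvd.2 h3))
    have h6 : b % q = s % q := (Int.ModEq.symm (Int.modEq_iff_dvd.2 h4))
    refine ⟨(s % q).toNat, ?_, ?_⟩
    · have h7 : d % q = (r % q).toNat := by
        have : ((d % q : ℕ) : ℤ) = r % q := by rw [Int.natCast_mod]; exact h5
        omega
      rw [h7]
      exact mem_rs h1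
    · rw [h6, Int.toNat_of_nonneg (Int.emod_nonneg _ hq')]
  · have h5 : (d : ℤ) % q = (-r) % q := by
      have : (q : ℤ) ∣ d - (-r) := by rwa [sub_neg_eq_add]
      exact (Int.ModEq.symm (Int.modEq_iff_dvd.2 this))
    have h6 : b % q = (-s) % q := by
      have : (q : ℤ) ∣ b - (-s) := by rwa [sub_neg_eq_add]
      exact (Int.ModEq.symm (Int.modEq_iff_dvd.2 this))
    refine ⟨(-s % q).toNat, ?_, ?_⟩
    · have h7 : d % q = (-r % q).toNat := by
        have : ((d % q : ℕ) : ℤ) = -r % q := by rw [Int.natCast_mod]; exact h5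
        omega
      rw [h7]
      exact mem_rs h2
    · rw [h6, Int.toNat_of_nonneg (Int.emod_nonneg _ hq')]

theorem ty_zero {q : ℕ} {d : ℕ} {b : ℤ} (h : Ty q d b 0 0) : d % q = 0 := by
  rcases h with ⟨h3, -⟩ | ⟨h3, -⟩
  · rw [sub_zero] at h3
    exact Nat.mod_eq_zero_of_dvd (Int.natCast_dvd_natCast.1 h3)
  · rw [add_zero] at h3
    exact Nat.mod_eq_zero_of_dvd (Int.natCast_dvd_natCast.1 h3)

variable {d : ℕ} {b w c : ℤ}

theorem r17 (H : Facts d b w c) (h : d % 17 ≠ 0) : ∃ x ∈ rs 17 (d % 17), b % (17 : ℕ) = (x : ℤ) := by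
  rcases H.t17 with h1 | h1 | h1 | h1 | h1 | h1 | h1
  · exact absurd (ty_zero (q := 17) h1) h
  all_goals exact ty_rs (by norm_num) h1 (by decide) (by decide)

theorem r19 (H : Facts d b w c) (h : d % 19 ≠ 0) : ∃ x ∈ rs 19 (d % 19), b % (19 : ℕ) = (x : ℤ) := by
  rcases H.t19 with h1 | h1 | h1 | h1 | h1 | h1
  · exact absurd (ty_zero (q := 19) h1) h
  all_goals exact ty_rs (by norm_num) h1 (by decide) (by decide)

theorem r23 (H : Facts d b w c) (h : d % 23 ≠ 0) : ∃ x ∈ rs 23 (d % 23), b % (23 : ℕ) = (x : ℤ) := by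
  rcases H.t23 with h1 | h1 | h1 | h1 | h1 | h1
  · exact absurd (ty_zero (q := 23) h1) h
  all_goals exact ty_rs (by norm_num) h1 (by decide) (by decide)

theorem r31 (H : Facts d b w c) (h : d % 31 ≠ 0) : ∃ x ∈ rs 31 (d % 31), b % (31 : ℕ) = (x : ℤ) := by
  rcases H.t31 with h1 | h1 | h1 | h1
  · exact absurd (ty_zero (q := 31) h1) h
  all_goals exact ty_rs (by norm_num) h1 (by decide) (by decide)

theorem r47 (H : Facts d b w c) (h : d % 47 ≠ 0) : ∃ x ∈ rs 47 (d % 47), b % (47 : ℕ) = (x : ℤ) := by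
  rcases H.t47 with h1 | h1 | h1
  · exact absurd (ty_zero (q := 47) h1) h
  all_goals exact ty_rs (by norm_num) h1 (by decide) (by decide)

theorem sg_natAbs (t : ℤ) : sg (decide (t < 0)) t.natAbs = t := by
  by_cases h : t < 0
  · simp only [sg, h, decide_true, if_true]
    omega
  · simp only [sg, h, decide_false, Bool.false_eq_true, if_false]
    omega

theorem sg_mul (e : Bool) (n : ℕ) (x : ℤ) : sg e (n * x) = n * sg e x := by
  cases e <;> simp [sg]

theorem goB_sound (H : Facts d b w c) {cn : Bool} (hc : c = sg cn 1) (h : goB d cn = true) :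
    c = 1 ∧ (d : ℤ) = cT ∧ b = 11487099325000 := by
  have hd0 : 0 < d := by exact_mod_cast H.pos
  set g := Nat.gcd d nA with hg
  have hg0 : 0 < g := Nat.gcd_pos_of_pos_left _ hd0
  set n := d / g with hn
  set u := nA / g with hu
  have e1 : d = g * n := (Nat.mul_div_cancel' (Nat.gcd_dvd_left d nA)).symm
  have e2 : nA = g * u := (Nat.mul_div_cancel' (Nat.gcd_dvd_right d nA)).symm
  have hcop : Nat.Coprime n u := Nat.coprime_div_gcd_div_gcd hg0
  have h1 : w * n = u * b := by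
    have h2 := H.om
    rw [← nA_eq, e2, e1] at h2
    push_cast at h2
    have h3 : (g : ℤ) ≠ 0 := by exact_mod_cast hg0.ne'
    apply mul_left_cancel₀ h3
    linear_combination h2
  have h2 : (n : ℤ) ∣ b := by
    have h3 : (n : ℤ) ∣ u * b := ⟨w, by rw [← h1, mul_comm]⟩
    exact (Nat.isCoprime_iff_coprime.2 hcop).dvd_of_dvd_mul_left h3
  obtain ⟨t, ht⟩ := h2
  have hn0 : (n : ℤ) ≠ 0 := by
    have : n ≠ 0 := by rintro h0; rw [h0, mul_zero] at e1; omega
    exact_mod_cast this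
  have hw : w = u * t := by
    rw [ht] at h1
    apply mul_right_cancel₀ hn0
    linear_combination h1
  have hin : inr d n t.natAbs = true := by
    obtain ⟨s, hs⟩ : ∃ s : ℕ, s = t.natAbs := ⟨_, rfl⟩
    have habs : |b| = ((n * s : ℕ) : ℤ) := by
      rw [ht, abs_mul, Nat.abs_cast, Nat.cast_mul, hs, Int.natCast_natAbs]
    have hbs : b ^ 2 = ((n * s * (n * s) : ℕ) : ℤ) := by
      rw [← sq_abs, habs]
      push_cast
      ring
    rw [← hs]
    clear_value n u
    unfold inr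
    apply Nat.ble_eq_true_of_le
    have h3 := H.sq
    rw [hbs, habs, ← nA_eq] at h3
    norm_num at h3
    exact_mod_cast h3
  have h5' : w % 5 = 2 := by have := H.om5; omega
  rw [hw] at h5'
  have hk := deg_sound (t := t) h
    h5'
    (by have := H.two; rw [ht] at this; rw [← neg_sub]; exact (dvd_neg.2 this))
    (by
      intro q hq hdq
      rw [← ht]
      simp only [List.mem_cons, List.not_mem_nil, or_false] at hq
      rcases hq with rfl | rfl | rfl | rfl | rfl
      · exact r17 H hdq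
      · exact r19 H hdq
      · exact r23 H hdq
      · exact r31 H hdq
      · exact r47 H hdq)
    hin
  obtain ⟨n₁, n₂, z, s1, s2, s3⟩ := H.sec
  have hb' : b = sg (decide (t < 0)) ((n * t.natAbs : ℕ) : ℤ) := by
    rw [Nat.cast_mul, sg_mul, sg_natAbs, ht]
  have hw' : w = sg (decide (t < 0)) ((u * t.natAbs : ℕ) : ℤ) := by
    rw [Nat.cast_mul, sg_mul, sg_natAbs, hw]
  rw [hc, hb', hw'] at s1
  rw [hb'] at s2
  obtain ⟨k1, k2, k3, k4⟩ := chk_sound hk s1 s2 (by linarith)
  refine ⟨?_, ?_, ?_⟩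
  · rw [hc, k4]; rfl
  · rw [k1]; rfl
  · rw [hb', k2, k3]; rfl

end Cfsg.Agent.H924.M23
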