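import Cfsg.Agent.H924.M23.Deg

/-!
# (M,23) of S4929: soundness of the enumeration of the degrees (helper924)
-/

set_option autoImplicit false
set_option maxRecDepth 100000

namespace Cfsg.Agent.H924.M23

theorem B_eq (c x y : Bool) : B c x y = if c then x else y := by cases c <;> rfl

theorem B_pos {c x y : Bool} (h : B c x y = true) (hc : c = true) : x = true := by
  subst hc; exact h

theorem B_neg {c x y : Bool} (h : B c x y = true) (hc : c = false) : y = true := by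
  subst hc; exact h

theorem B_and {c x : Bool} (h : B c x false = true) : c = true ∧ x = true := by
  cases c
  · exact absurd (show false = true from h) (by decide)
  · exact ⟨rfl, h⟩

theorem F_eq (x : ℕ) (k : ℕ → Bool) : F x k = k x := by cases x <;> rfl

/-- the conclusion of the sieve -/
def Con (d : ℤ) (b c : ℤ) : Prop := c = 1 ∧ d = cT ∧ b = 11487099325000

variable {d : ℕ} {b w c : ℤ}

theorem nN_eq : (nN : ℤ) = cN := by unfold nN cN; norm_num

theorem m9_sound (H : Facts d b w c) (h : m9 d (nN / d % 5) = true) : Con d b c := by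
  obtain ⟨v, h1, h2⟩ := H.five
  have hd0 : (0 : ℤ) < d := H.pos
  have h3 : ((nN / d : ℕ) : ℤ) = v := by
    rw [Int.natCast_div, nN_eq, ← h1]
    exact Int.mul_ediv_cancel _ hd0.ne'
  unfold m9 at h
  rcases H.hc with hc | hc
  · have h4 : nN / d % 5 = 4 := by omega
    rw [h4] at h
    exact goB_sound H (cn := false) (by rw [hc]; rfl) (B_pos h rfl)
  · have h4 : nN / d % 5 = 1 := by omega
    rw [h4] at h
    exact goB_sound H (cn := true) (by rw [hc]; rfl) (B_pos (B_neg h rfl) rfl)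

theorem mask17 : ∀ r < 17, r ∈ ([0, 1, 6, 7, 8, 3, 16, 11, 10, 9, 14] : List ℕ) →
    Nat.beq (Nat.mod (Nat.shiftRight 85963 r) 2) 1 = true := by decide

theorem mask19 : ∀ r < 19, r ∈ ([0, 1, 4, 5, 3, 6, 18, 15, 14, 16, 13] : List ℕ) →
    Nat.beq (Nat.mod (Nat.shiftRight 385147 r) 2) 1 = true := by decide

theorem d17 (H : Facts d b w c) : d % 17 ∈ ([0, 1, 6, 7, 8, 3, 16, 11, 10, 9, 14] : List ℕ) := by
  simp only [List.mem_cons, List.not_mem_nil, or_false]
  rcases H.t17 with (⟨h, -⟩ | ⟨h, -⟩) | (⟨h, -⟩ | ⟨h, -⟩) | (⟨h, -⟩ | ⟨h, -⟩) | (⟨h, -⟩ | ⟨h, -⟩) | (⟨h, -⟩ | ⟨h, -⟩) |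
    (⟨h, -⟩ | ⟨h, -⟩) | (⟨h, -⟩ | ⟨h, -⟩) <;> omega

theorem d19 (H : Facts d b w c) : d % 19 ∈ ([0, 1, 4, 5, 3, 6, 18, 15, 14, 16, 13] : List ℕ) := by
  simp only [List.mem_cons, List.not_mem_nil, or_false]
  rcases H.t19 with (⟨h, -⟩ | ⟨h, -⟩) | (⟨h, -⟩ | ⟨h, -⟩) | (⟨h, -⟩ | ⟨h, -⟩) | (⟨h, -⟩ | ⟨h, -⟩) | (⟨h, -⟩ | ⟨h, -⟩) |
    (⟨h, -⟩ | ⟨h, -⟩) <;> omega

theorem d23 (H : Facts d b w c) : (d + 3) % 23 ≤ 6 := by
  rcases H.t23 with (⟨h, -⟩ | ⟨h, -⟩) | (⟨h, -⟩ | ⟨h, -⟩) | (⟨h, -⟩ | ⟨h, -⟩) | (⟨h, -⟩ | ⟨h, -⟩) | (⟨h, -⟩ | ⟨h, -⟩) |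
    (⟨h, -⟩ | ⟨h, -⟩) <;> omega

theorem d31 (H : Facts d b w c) : (d + 2) % 31 ≤ 4 := by
  rcases H.t31 with (⟨h, -⟩ | ⟨h, -⟩) | (⟨h, -⟩ | ⟨h, -⟩) | (⟨h, -⟩ | ⟨h, -⟩) | (⟨h, -⟩ | ⟨h, -⟩) <;> omega

theorem d47 (H : Facts d b w c) : (d + 1) % 47 ≤ 2 := by
  rcases H.t47 with (⟨h, -⟩ | ⟨h, -⟩) | (⟨h, -⟩ | ⟨h, -⟩) | (⟨h, -⟩ | ⟨h, -⟩) <;> omega

theorem d29 (H : Facts d b w c) : (d + 2) % 29 ≤ 4 := by
  rcases H.t29 with h | h | h | h | h <;> omega

theorem d41 (H : Facts d b w c) : (d + 1) % 41 ≤ 2 := by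
  rcases H.t41 with h | h | h <;> omega

theorem d59 (H : Facts d b w c) : (d + 1) % 59 ≤ 2 := by
  rcases H.t59 with h | h | h <;> omega

theorem d71 (H : Facts d b w c) : (d + 1) % 71 ≤ 2 := by
  rcases H.t71 with h | h | h <;> omega

theorem leaf_sound (H : Facts d b w c) (h : leaf d = true) : Con d b c := by
  have h1 := B_pos h (Nat.ble_eq_true_of_le (d71 H))
  have h2 := B_pos (show m1 d = true from h1) (Nat.ble_eq_true_of_le (d59 H))
  have h3 := B_pos (show m2 d = true from h2) (Nat.ble_eq_true_of_le (d47 H))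
  have h4 := B_pos (show m3 d = true from h3) (Nat.ble_eq_true_of_le (d41 H))
  have h5 := B_pos (show m4 d = true from h4) (Nat.ble_eq_true_of_le (d31 H))
  have h6 := B_pos (show m5 d = true from h5) (Nat.ble_eq_true_of_le (d29 H))
  have h7 := B_pos (show m6 d = true from h6) (Nat.ble_eq_true_of_le (d23 H))
  have h8 := B_pos (show m7 d = true from h7) (mask19 _ (Nat.mod_lt _ (by norm_num)) (d19 H))
  have h9 := B_pos (show m8 d = true from h8) (mask17 _ (Nat.mod_lt _ (by norm_num)) (d17 H))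
  rw [F_eq] at h9
  exact m9_sound H h9

theorem le_nD (H : Facts d b w c) : d ≤ nD := by
  have h := H.le
  have : (nD : ℤ) = cD := rfl
  rw [← this] at h
  exact_mod_cast h

theorem leafD_sound (H : Facts d b w c) (h : leafD d = true) : Con d b c :=
  leaf_sound H (B_pos h (Nat.ble_eq_true_of_le (le_nD H)))

theorem leafAt_sound (H : Facts d b w c) {P a : ℕ} (hd : d = P * 2 ^ a) (ha : a ≤ 35) (h : leafAt P a = true) :
    Con d b c := by
  have h1 := B_pos h (Nat.ble_eq_true_of_le ha)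
  rw [F_eq] at h1
  refine leafD_sound H ?_
  rw [hd]
  exact h1

theorem leafT_sound (H : Facts d b w c) {P a e a' : ℕ} (hd : d = P * 2 ^ a) (ha : a ≤ 35) (h : leafT P e a' = true)
    (h' : a = a' ∨ a = a' + e) : Con d b c := by
  obtain ⟨h1, h2⟩ := B_and h
  rcases h' with rfl | rfl
  · exact leafAt_sound H hd ha h1
  · exact leafAt_sound H hd ha h2

theorem loop_sound {p : ℕ} (hp : 0 < p) {f : ℕ → Bool} : ∀ k x, loop p f k x = true → ∀ j ≤ k, x * p ^ j ≤ nD →
    f (x * p ^ j) = true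
  | 0, x, h, j, hj, hx => by
    obtain rfl : j = 0 := by omega
    rw [pow_zero, mul_one] at hx ⊢
    exact B_pos h (Nat.ble_eq_true_of_le hx)
  | k + 1, x, h, j, hj, hx => by
    have hx0 : x ≤ nD := (Nat.le_mul_of_pos_right x (pow_pos hp j)).trans hx
    have h1 := B_and (B_pos (show B (Nat.ble x nD) (B (f x) (F (Nat.mul x p) (loop p f k)) false) true = true from h)
      (Nat.ble_eq_true_of_le hx0))
    rcases j with _ | j
    · rw [pow_zero, mul_one]
      exact h1.1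
    · have h2 := h1.2
      rw [F_eq] at h2
      have e : x * p ^ (j + 1) = x * p * p ^ j := by ring
      rw [e] at hx ⊢
      exact loop_sound hp k (x * p) h2 j (by omega) hx

theorem log71 : (List.range 71).all (fun r => (List.range 36).all fun a => r == 0 || !(Nat.ble ((r * 2 ^ a + 1) % 71) 2) ||
    (a == (L71 >>> (8 * r)) % 256 || a == (L71 >>> (8 * r)) % 256 + 35)) = true := by decide +kernel

theorem log59 : (List.range 59).all (fun r => (List.range 36).all fun a => r == 0 || !(Nat.ble ((r * 2 ^ a + 1) % 59) 2) ||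
    (a == (L59 >>> (8 * r)) % 256 || a == (L59 >>> (8 * r)) % 256 + 29)) = true := by decide +kernel

theorem log47 : (List.range 47).all (fun r => (List.range 36).all fun a => r == 0 || !(Nat.ble ((r * 2 ^ a + 1) % 47) 2) ||
    (a == (L47 >>> (8 * r)) % 256 || a == (L47 >>> (8 * r)) % 256 + 23)) = true := by decide +kernel

theorem log_use {q L e : ℕ} (hq : 0 < q) (h : (List.range q).all (fun r => (List.range 36).all fun a =>
    r == 0 || !(Nat.ble ((r * 2 ^ a + 1) % q) 2) || (a == (L >>> (8 * r)) % 256 || a == (L >>> (8 * r)) % 256 + e)) = true)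
    {P a : ℕ} (ha : a ≤ 35) (hP : P % q ≠ 0) (h2 : (P * 2 ^ a + 1) % q ≤ 2) :
    a = (L >>> (8 * (P % q))) % 256 ∨ a = (L >>> (8 * (P % q))) % 256 + e := by
  simp only [List.all_eq_true, List.mem_range, Bool.or_eq_true, beq_iff_eq, Bool.not_eq_true'] at h
  rcases h (P % q) (Nat.mod_lt _ hq) a (by omega) with (h3 | h3) | h3
  · exact absurd h3 hP
  · exfalso
    have h4 : (P % q * 2 ^ a + 1) % q = (P * 2 ^ a + 1) % q := by
      rw [Nat.add_mod, Nat.mul_mod, Nat.mod_mod, ← Nat.mul_mod, ← Nat.add_mod]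
    rw [h4, Nat.ble_eq_true_of_le h2] at h3
    exact absurd h3 (by decide)
  · exact h3

theorem t47_sound (H : Facts d b w c) {P a : ℕ} (hd : d = P * 2 ^ a) (ha : a ≤ 35) (h : t47 P = true) : Con d b c := by
  by_cases hP : P % 47 = 0
  · have h1 : loop2 P = true := B_pos h (by show Nat.beq (P % 47) 0 = true; rw [hP]; rfl)
    have h2 := loop_sound (by norm_num) 35 P h1 a ha (by rw [← hd]; exact le_nD H)
    rw [← hd] at h2
    exact leaf_sound H h2
  · have h1 := B_neg h (by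
      show Nat.beq (P % 47) 0 = false
      rw [Bool.eq_false_iff]; intro h0; exact hP (Nat.eq_of_beq_eq_true h0))
    rw [F_eq] at h1
    exact leafT_sound H hd ha h1 (log_use (by norm_num) log47 ha hP (by rw [← hd]; exact d47 H))

theorem t59_sound (H : Facts d b w c) {P a : ℕ} (hd : d = P * 2 ^ a) (ha : a ≤ 35) (h : t59 P = true) : Con d b c := by
  by_cases hP : P % 59 = 0
  · exact t47_sound H hd ha (B_pos h (by show Nat.beq (P % 59) 0 = true; rw [hP]; rfl))
  · have h1 := B_neg h (by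
      show Nat.beq (P % 59) 0 = false
      rw [Bool.eq_false_iff]; intro h0; exact hP (Nat.eq_of_beq_eq_true h0))
    rw [F_eq] at h1
    exact leafT_sound H hd ha h1 (log_use (by norm_num) log59 ha hP (by rw [← hd]; exact d59 H))

theorem tail_sound (H : Facts d b w c) {P a : ℕ} (hd : d = P * 2 ^ a) (ha : a ≤ 35) (h : tail P = true) : Con d b c := by
  by_cases hP : P % 71 = 0
  · exact t59_sound H hd ha (B_pos h (by show Nat.beq (P % 71) 0 = true; rw [hP]; rfl))
  · have h1 := B_neg h (by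
      show Nat.beq (P % 71) 0 = false
      rw [Bool.eq_false_iff]; intro h0; exact hP (Nat.eq_of_beq_eq_true h0))
    rw [F_eq] at h1
    exact leafT_sound H hd ha h1 (log_use (by norm_num) log71 ha hP (by rw [← hd]; exact d71 H))

end Cfsg.Agent.H924.M23
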