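import Cfsg.Agent.H924.M23.Chk

/-!
# (M,23) of S4929: soundness of the test of one degree (helper924)
-/

set_option autoImplicit false

namespace Cfsg.Agent.H924.M23

theorem run_sound {p q : ℕ → Bool} {m : ℕ} (mono : ∀ a b, a ≤ b → p b = true → p a = true) :
    ∀ f s, run p q m f s = true → ∀ j, p (s + m * j) = true → q (s + m * j) = true
  | 0, s, h, j, hp => by
    have h1 := mono s _ (Nat.le_add_right _ _) hp
    unfold run at h
    rw [h1] at h
    exact absurd h (by decide)
  | f + 1, s, h, j, hp => by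
    have h1 := mono s _ (Nat.le_add_right _ _) hp
    unfold run at h
    rw [if_pos h1, Bool.and_eq_true] at h
    rcases j with _ | j
    · simpa using h.1
    · have h2 := run_sound mono f (s + m) h.2 j
      have e : s + m * (j + 1) = s + m + m * j := by ring
      rw [e] at hp ⊢
      exact h2 hp

theorem inr_mono {d n : ℕ} : ∀ a b, a ≤ b → inr d n b = true → inr d n a = true := by
  intro a b hab h
  unfold inr at h ⊢
  have h1 := Nat.le_of_ble_eq_true h
  apply Nat.ble_eq_true_of_le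
  have h2 : n * a ≤ n * b := Nat.mul_le_mul_left _ hab
  generalize n * a = x at h2 ⊢
  generalize n * b = y at h1 h2
  rcases Nat.eq_zero_or_pos y with hy | hy
  · obtain rfl : x = 0 := by omega
    exact Nat.zero_le _
  · have h3 : y * (nA * (x * x)) ≤ x * (nA * (y * y)) := by
      have : nA * (x * y) * x ≤ nA * (x * y) * y := Nat.mul_le_mul_left _ h2
      nlinarith
    have h4 : x * (nA * (y * y)) ≤ x * (d * (d + 27143910000 * y + 80000000000000000000000000000)) :=
      Nat.mul_le_mul_left _ h1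
    have h5 : x * (d * (d + 27143910000 * y + 80000000000000000000000000000)) ≤
        y * (d * (d + 27143910000 * x + 80000000000000000000000000000)) := by
      have : x * (d * (d + 80000000000000000000000000000)) ≤ y * (d * (d + 80000000000000000000000000000)) :=
        Nat.mul_le_mul_right _ h2
      nlinarith
    exact Nat.le_of_mul_le_mul_left (h3.trans (h4.trans h5)) hy

theorem refine_sound {a M m q : ℕ} {R L : List ℕ} (hq : 0 < q) (hm : 0 < m) (hd : M ∣ a * m * q) {t : ℤ}
    (hL : ∃ x ∈ L, t % m = (x : ℤ)) (hR : ∃ r ∈ R, ((a : ℤ) * t) % M = (r : ℤ)) :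
    ∃ x ∈ refine a M R m q L, t % ((m * q : ℕ) : ℤ) = (x : ℤ) := by
  obtain ⟨x, hx, h1⟩ := hL
  obtain ⟨r, hr, h2⟩ := hR
  have hm' : (0 : ℤ) < m := by exact_mod_cast hm
  have hq' : (0 : ℤ) < q := by exact_mod_cast hq
  have h3 : t = m * (t / m) + x := by rw [← h1]; exact (Int.mul_ediv_add_emod t m).symm
  have h4 : t / m = q * (t / m / q) + (t / m) % q := (Int.mul_ediv_add_emod (t / m) q).symm
  have h5 := Int.emod_nonneg (t / m) hq'.ne'
  have h6 := Int.emod_lt_of_pos (t / m) hq'
  obtain ⟨i, hi⟩ := Int.eq_ofNat_of_zero_le h5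
  have hi' : i < q := by
    have : (i : ℤ) < q := by rw [← hi]; exact h6
    exact_mod_cast this
  have hxm : x < m := by
    have : (x : ℤ) < m := by rw [← h1]; exact Int.emod_lt_of_pos _ hm'
    exact_mod_cast this
  set k := t / m / q with hk
  have h7 : t = ((x + m * i : ℕ) : ℤ) + ((m * q : ℕ) : ℤ) * k := by
    rw [hi] at h4
    rw [h4] at h3
    rw [h3]
    push_cast
    ring
  refine ⟨x + m * i, ?_, ?_⟩
  · unfold refine
    rw [List.mem_flatMap]
    refine ⟨x, hx, ?_⟩
    rw [List.mem_filter]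
    refine ⟨List.mem_map.2 ⟨i, List.mem_range.2 hi', rfl⟩, ?_⟩
    have h8 : a * (x + m * i) % M = r := by
      have h9 : ((a : ℤ) * t) = ((a * (x + m * i) : ℕ) : ℤ) + M * ((a * m * q / M : ℕ) * k) := by
        have h10 : ((a * m * q : ℕ) : ℤ) = M * (a * m * q / M : ℕ) := by
          exact_mod_cast (Nat.mul_div_cancel' hd).symm
        rw [h7]
        push_cast at h10 ⊢
        linear_combination k * h10
      rw [h9, Int.add_mul_emod_self_left] at h2
      exact_mod_cast h2
    rw [h8]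
    simpa using hr
  · rw [h7, Int.add_mul_emod_self_left]
    apply Int.emod_eq_of_lt (by positivity)
    have : x + m * i < m * q := by
      calc x + m * i < m + m * i := by omega
        _ = m * (i + 1) := by ring
        _ ≤ m * q := Nat.mul_le_mul_left _ hi'
    exact_mod_cast this

theorem two_sound {d n : ℕ} {t : ℤ} {k : ℕ → List ℕ → Bool} : ∀ (f M m : ℕ) (L : List ℕ), two d n f M m L k = true → 0 < m →
    0 < M → M ∣ 2 * n * m → (∀ i < f, ((M * 2 ^ i : ℕ) : ℤ) ∣ n * t - d) → (∃ x ∈ L, t % m = (x : ℤ)) →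
    ∃ m' L', k m' L' = true ∧ 0 < m' ∧ ∃ x ∈ L', t % (m' : ℤ) = (x : ℤ)
  | 0, M, m, L, h, hm, _, _, _, hL => ⟨m, L, by unfold two at h; exact h, hm, hL⟩
  | f + 1, M, m, L, h, hm, hM, hd, ht, hL => by
    have h0 : (M : ℤ) ∣ n * t - d := by
      have := ht 0 (Nat.succ_pos _)
      rwa [pow_zero, mul_one] at this
    have h1 : ∀ i < f, ((2 * M * 2 ^ i : ℕ) : ℤ) ∣ n * t - d := by
      intro i hi
      have := ht (i + 1) (Nat.succ_lt_succ hi)
      rwa [show M * 2 ^ (i + 1) = 2 * M * 2 ^ i by ring] at this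
    unfold two at h
    by_cases hn : n % M = 0
    · rw [if_pos hn] at h
      have hnM : M ∣ n := Nat.dvd_of_mod_eq_zero hn
      have hdM : d % M = 0 := by
        have h2 : (M : ℤ) ∣ n * t := (Int.natCast_dvd_natCast.2 hnM).mul_right t
        have h3 : (M : ℤ) ∣ d := by
          have := dvd_sub h2 h0
          rwa [sub_sub_cancel] at this
        exact Nat.mod_eq_zero_of_dvd (Int.natCast_dvd_natCast.1 h3)
      rw [if_pos hdM] at h
      refine two_sound f (2 * M) m L h hm (by omega) ?_ h1 hL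
      obtain ⟨c, hc⟩ := hnM
      exact ⟨c * m, by rw [hc]; ring⟩
    · rw [if_neg hn] at h
      refine two_sound f (2 * M) (2 * m) _ h (by omega) (by omega) ?_ h1 ?_
      · obtain ⟨c, hc⟩ := hd
        exact ⟨c, by rw [show 2 * n * (2 * m) = 2 * (2 * n * m) by ring, hc]; ring⟩
      · have h2 := refine_sound (a := n) (M := M) (q := 2) (R := [d % M]) (by norm_num) hm
          (by rw [show n * m * 2 = 2 * n * m by ring]; exact hd) hL
          ⟨d % M, by simp, by
            rw [Int.natCast_mod]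
            exact Int.ModEq.symm (Int.modEq_iff_dvd.2 h0)⟩
        rwa [mul_comm m 2] at h2

theorem stp_sound {d n q : ℕ} {t : ℤ} {k : ℕ → List ℕ → Bool} {m : ℕ} {L : List ℕ} (hq : 0 < q)
    (h : stp d n q k m L = true) (hm : 0 < m) (hL : ∃ x ∈ L, t % m = (x : ℤ))
    (ht : d % q ≠ 0 → ∃ r ∈ rs q (d % q), ((n : ℤ) * t) % q = (r : ℤ)) :
    ∃ m' L', k m' L' = true ∧ 0 < m' ∧ ∃ x ∈ L', t % (m' : ℤ) = (x : ℤ) := by
  unfold stp at h
  by_cases hd : d % q = 0
  · rw [if_pos hd] at h
    exact ⟨m, L, h, hm, hL⟩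
  · rw [if_neg hd] at h
    exact ⟨_, _, h, Nat.mul_pos hm hq, refine_sound hq hm (Dvd.intro_left _ rfl) hL (ht hd)⟩

theorem fin_sound {d n u : ℕ} {cn : Bool} {t : ℤ} {m : ℕ} {L : List ℕ} (h : fin d n u cn m L = true) (hm : 0 < m)
    (hL : ∃ x ∈ L, t % m = (x : ℤ)) (hr : inr d n t.natAbs = true) : chk d n u cn (decide (t < 0)) t.natAbs = true := by
  obtain ⟨x, hx, h1⟩ := hL
  unfold fin at h
  rw [List.all_eq_true] at h
  have h2 := h x hx
  rw [Bool.and_eq_true] at h2
  have hm' : (0 : ℤ) < m := by exact_mod_cast hm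
  have h3 : t = m * (t / m) + x := by rw [← h1]; exact (Int.mul_ediv_add_emod t m).symm
  have hxm : x < m := by
    have : (x : ℤ) < m := by rw [← h1]; exact Int.emod_lt_of_pos _ hm'
    exact_mod_cast this
  by_cases ht : t < 0
  · rw [decide_eq_true ht]
    have h4 : t / m < 0 := Int.ediv_neg_of_neg_of_pos ht hm'
    obtain ⟨j, hj⟩ := Int.eq_ofNat_of_zero_le (show 0 ≤ -(t / m) - 1 by omega)
    have h5 : t.natAbs = (m - x) + m * j := by
      have h6 : ((m - x + m * j : ℕ) : ℤ) = -t := by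
        push_cast [hxm.le]
        have : t / m = -1 - j := by omega
        rw [this] at h3
        rw [h3]
        ring
      omega
    rw [h5] at hr ⊢
    exact run_sound inr_mono _ _ h2.2 j hr
  · rw [decide_eq_false ht]
    have h4 : 0 ≤ t / m := Int.ediv_nonneg (by omega) hm'.le
    obtain ⟨j, hj⟩ := Int.eq_ofNat_of_zero_le h4
    have h5 : t.natAbs = x + m * j := by
      have h6 : ((x + m * j : ℕ) : ℤ) = t := by
        rw [hj] at h3
        rw [h3]
        push_cast
        ring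
      omega
    rw [h5] at hr ⊢
    exact run_sound inr_mono _ _ h2.1 j hr

theorem deg_sound {d n u : ℕ} {cn : Bool} {t : ℤ} (h : deg d n u cn = true) (h5 : ((u : ℤ) * t) % 5 = 2)
    (h2 : (4096 : ℤ) ∣ n * t - d)
    (hq : ∀ q ∈ ([17, 19, 23, 31, 47] : List ℕ), d % q ≠ 0 → ∃ r ∈ rs q (d % q), ((n : ℤ) * t) % q = (r : ℤ))
    (hr : inr d n t.natAbs = true) : chk d n u cn (decide (t < 0)) t.natAbs = true := by
  unfold deg at h
  have h0 := refine_sound (a := u) (M := 5) (m := 1) (q := 5) (R := [2]) (L := [0]) (t := t) (by norm_num) (by norm_num)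
    (Dvd.intro_left _ rfl) ⟨0, by simp, by simp⟩ ⟨2, by simp, h5⟩
  rw [one_mul] at h0
  obtain ⟨m1, L1, k1, p1, e1⟩ := two_sound 12 2 5 _ h (by norm_num) (by norm_num) ⟨5 * n, by ring⟩ (by
    intro i hi
    refine dvd_trans ?_ h2
    have : (2 * 2 ^ i : ℕ) ∣ 4096 := by
      rw [show 2 * 2 ^ i = 2 ^ (i + 1) by ring, show (4096 : ℕ) = 2 ^ 12 by norm_num]
      exact pow_dvd_pow 2 (by omega)
    exact_mod_cast this) h0
  obtain ⟨m2, L2, k2, p2, e2⟩ := stp_sound (by norm_num) k1 p1 e1 (hq 47 (by simp))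
  obtain ⟨m3, L3, k3, p3, e3⟩ := stp_sound (by norm_num) k2 p2 e2 (hq 31 (by simp))
  obtain ⟨m4, L4, k4, p4, e4⟩ := stp_sound (by norm_num) k3 p3 e3 (hq 23 (by simp))
  obtain ⟨m5, L5, k5, p5, e5⟩ := stp_sound (by norm_num) k4 p4 e4 (hq 19 (by simp))
  obtain ⟨m6, L6, k6, p6, e6⟩ := stp_sound (by norm_num) k5 p5 e5 (hq 17 (by simp))
  exact fin_sound k6 p6 e6 hr

end Cfsg.Agent.H924.M23
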