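import Cfsg.Agent.H892.M23.Run

set_option autoImplicit false

namespace Cfsg.Agent.H924.M23

/-- the enumeration of all divisors -/
theorem run_all : loop 71 (loop 59 (loop 47 (loop 41 (loop 31 (loop 29 (loop 23 (loop 19 (loop 17 (loop 13 (loop 11
    (loop 7 (loop 3 tail 14) 5) 1) 3) 1) 1) 1) 1) 1) 1) 1) 1) 1 390625 = true :=
  Cfsg.Agent.H892.M23.run_all

end Cfsg.Agent.H924.M23
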