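import Cfsg.Agent.H924.M23.Enum
import Cfsg.Agent.H924.M23.Run

/-!
# (M,23) of S4929: the sieve (helper924)
-/

set_option autoImplicit false

namespace Cfsg.Agent.H924.M23

theorem split {p k m x : ℕ} (hp : p.Prime) (h : x ∣ p ^ k * m) : ∃ j ≤ k, ∃ y, y ∣ m ∧ x = p ^ j * y := by
  obtain ⟨y, z, hy, hz, rfl⟩ := (Nat.dvd_mul).1 h
  obtain ⟨j, hj, rfl⟩ := (Nat.dvd_prime_pow hp).1 hy
  exact ⟨j, hj, z, hz, rfl⟩

theorem step {p k : ℕ} (hp : p.Prime) {f : ℕ → Bool} {x m y d : ℕ} (hd0 : 0 < d) (hle : d ≤ nD) (hl : loop p f k x = true)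
    (hd : d = x * y) (hy : y ∣ p ^ k * m) : ∃ x' y', f x' = true ∧ d = x' * y' ∧ y' ∣ m := by
  obtain ⟨j, hj, y', hy', rfl⟩ := split hp hy
  have h1 : d = x * p ^ j * y' := by rw [hd]; ring
  exact ⟨x * p ^ j, y', loop_sound hp.pos k x hl j hj ((Nat.le_of_dvd hd0 ⟨y', h1⟩).trans hle), h1, hy'⟩

theorem nN_split : nN = 390625 * (71 ^ 1 * (59 ^ 1 * (47 ^ 1 * (41 ^ 1 * (31 ^ 1 * (29 ^ 1 * (23 ^ 1 * (19 ^ 1 * (17 ^ 1 *
    (13 ^ 3 * (11 ^ 1 * (7 ^ 5 * (3 ^ 14 * (2 ^ 35 * 1)))))))))))))) := by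
  unfold nN; norm_num

theorem sieve_nat {d : ℕ} {b w c : ℤ} (H : Facts d b w c) : Con d b c := by
  obtain ⟨v, hv1, hv2⟩ := H.five
  have hd0 : 0 < d := by have := H.pos; exact_mod_cast this
  have hle : d ≤ nD := le_nD H
  have hv5 : IsCoprime ((5 : ℤ) ^ 8) v := by
    have h5 : Prime (5 : ℤ) := by
      have := Nat.prime_iff_prime_int.1 Nat.prime_five
      exact_mod_cast this
    refine IsCoprime.pow_left (h5.coprime_iff_not_dvd.2 fun h => ?_)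
    rcases H.hc with hc | hc <;> omega
  have h58 : ((5 : ℤ) ^ 8) ∣ (d : ℤ) := by
    refine hv5.dvd_of_dvd_mul_left ?_
    rw [hv1]
    exact ⟨2 ^ 35 * 3 ^ 14 * 7 ^ 5 * 11 * 13 ^ 3 * 17 * 19 * 23 * 29 * 31 * 41 * 47 * 59 * 71, by unfold cN; norm_num⟩
  obtain ⟨y, hy⟩ : 390625 ∣ d := by
    have : ((390625 : ℕ) : ℤ) ∣ (d : ℤ) := by
      have e : ((390625 : ℕ) : ℤ) = (5 : ℤ) ^ 8 := by norm_num
      rw [e]; exact h58
    exact_mod_cast this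
  have hdN : d ∣ nN := by
    have : (d : ℤ) ∣ (nN : ℤ) := ⟨v, by rw [nN_eq, ← hv1]; ring⟩
    exact_mod_cast this
  have hyN : y ∣ 71 ^ 1 * (59 ^ 1 * (47 ^ 1 * (41 ^ 1 * (31 ^ 1 * (29 ^ 1 * (23 ^ 1 * (19 ^ 1 * (17 ^ 1 *
    (13 ^ 3 * (11 ^ 1 * (7 ^ 5 * (3 ^ 14 * (2 ^ 35 * 1))))))))))))) := by
    rw [nN_split, hy] at hdN
    exact Nat.dvd_of_mul_dvd_mul_left (by norm_num) hdN
  obtain ⟨x1, y1, l1, e1, d1⟩ := step (by norm_num) hd0 hle run_all hy hyN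
  obtain ⟨x2, y2, l2, e2, d2⟩ := step (by norm_num) hd0 hle l1 e1 d1
  obtain ⟨x3, y3, l3, e3, d3⟩ := step (by norm_num) hd0 hle l2 e2 d2
  obtain ⟨x4, y4, l4, e4, d4⟩ := step (by norm_num) hd0 hle l3 e3 d3
  obtain ⟨x5, y5, l5, e5, d5⟩ := step (by norm_num) hd0 hle l4 e4 d4
  obtain ⟨x6, y6, l6, e6, d6⟩ := step (by norm_num) hd0 hle l5 e5 d5
  obtain ⟨x7, y7, l7, e7, d7⟩ := step (by norm_num) hd0 hle l6 e6 d6
  obtain ⟨x8, y8, l8, e8, d8⟩ := step (by norm_num) hd0 hle l7 e7 d7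
  obtain ⟨x9, y9, l9, e9, d9⟩ := step (by norm_num) hd0 hle l8 e8 d8
  obtain ⟨x10, y10, l10, e10, d10⟩ := step (by norm_num) hd0 hle l9 e9 d9
  obtain ⟨x11, y11, l11, e11, d11⟩ := step (by norm_num) hd0 hle l10 e10 d10
  obtain ⟨x12, y12, l12, e12, d12⟩ := step (by norm_num) hd0 hle l11 e11 d11
  obtain ⟨x13, y13, l13, e13, d13⟩ := step (by norm_num) hd0 hle l12 e12 d12
  obtain ⟨a, ha, z, hz, rfl⟩ := split (by norm_num) d13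
  obtain rfl : z = 1 := Nat.dvd_one.1 hz
  rw [mul_one] at e13
  exact tail_sound H e13 ha l13

/-- The sieve. -/
theorem sieve {d b w c : ℤ} (h : Facts d b w c) : c = 1 ∧ d = cT ∧ b = 11487099325000 := by
  have h0 : 0 ≤ d := h.pos.le
  lift d to ℕ using h0
  exact sieve_nat h

end Cfsg.Agent.H924.M23
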