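import Cfsg.Agent.H924.M23.Fun

/-!
# (M,23) of S4929: the vectors of the sections of 11 and 13 (helper924)
-/

set_option autoImplicit false
set_option maxRecDepth 100000

namespace Cfsg.Agent.H924.M23

theorem N11_nonneg (a₁ a₂ a₃ a₄ a₅ : ℤ) : 0 ≤ N11 a₁ a₂ a₃ a₄ a₅ := by
  have h : 315 * N11 a₁ a₂ a₃ a₄ a₅ = 35 * (9 * a₁ + (-7) * a₂ + 5 * a₃ + (-3) * a₄ + a₅) ^ 2
      + 55 * (7 * a₂ + (-5) * a₃ + 3 * a₄ + (-1) * a₅) ^ 2 + 99 * (5 * a₃ + (-3) * a₄ + a₅) ^ 2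
      + 231 * (3 * a₄ + (-1) * a₅) ^ 2 + 1155 * a₅ ^ 2 := by unfold N11; ring
  have : 0 ≤ 315 * N11 a₁ a₂ a₃ a₄ a₅ := by rw [h]; positivity
  omega

theorem N11_two (a₁ a₂ a₃ a₄ a₅ : ℤ) : 11 * a₂ ^ 2 ≤ 2 * N11 a₁ a₂ a₃ a₄ a₅ := by
  have h : 45 * (2 * N11 a₁ a₂ a₃ a₄ a₅ - 11 * a₂ ^ 2) = 10 * (9 * a₁ + (-7) * a₂ + 5 * a₃ + (-3) * a₄ + a₅) ^ 2
      + 11 * (5 * a₂ + (-10) * a₃ + 6 * a₄ + (-2) * a₅) ^ 2 + 66 * (3 * a₄ + (-1) * a₅) ^ 2 + 330 * a₅ ^ 2 := by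
    unfold N11; ring
  have : 0 ≤ 45 * (2 * N11 a₁ a₂ a₃ a₄ a₅ - 11 * a₂ ^ 2) := by rw [h]; positivity
  omega

theorem N11_four (a₁ a₂ a₃ a₄ a₅ : ℤ) : 11 * a₄ ^ 2 ≤ 2 * N11 a₁ a₂ a₃ a₄ a₅ := by
  have h : 315 * (2 * N11 a₁ a₂ a₃ a₄ a₅ - 11 * a₄ ^ 2) = 70 * (9 * a₁ + (-7) * a₂ + 5 * a₃ + (-3) * a₄ + a₅) ^ 2
      + 110 * (7 * a₂ + (-5) * a₃ + 3 * a₄ + (-1) * a₅) ^ 2 + 198 * (5 * a₃ + (-3) * a₄ + a₅) ^ 2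
      + 693 * (a₄ + (-2) * a₅) ^ 2 := by
    unfold N11; ring
  have : 0 ≤ 315 * (2 * N11 a₁ a₂ a₃ a₄ a₅ - 11 * a₄ ^ 2) := by rw [h]; positivity
  omega

theorem N11_five (a₁ a₂ a₃ a₄ a₅ : ℤ) : 11 * a₅ ^ 2 ≤ 3 * N11 a₁ a₂ a₃ a₄ a₅ := by
  have h : 105 * (3 * N11 a₁ a₂ a₃ a₄ a₅ - 11 * a₅ ^ 2) = 35 * (9 * a₁ + (-7) * a₂ + 5 * a₃ + (-3) * a₄ + a₅) ^ 2
      + 55 * (7 * a₂ + (-5) * a₃ + 3 * a₄ + (-1) * a₅) ^ 2 + 99 * (5 * a₃ + (-3) * a₄ + a₅) ^ 2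
      + 231 * (3 * a₄ + (-1) * a₅) ^ 2 := by
    unfold N11; ring
  have : 0 ≤ 105 * (3 * N11 a₁ a₂ a₃ a₄ a₅ - 11 * a₅ ^ 2) := by rw [h]; positivity
  omega

theorem N13_nonneg (a₁ a₂ a₃ : ℤ) : 0 ≤ N13 a₁ a₂ a₃ := by
  have h : 45 * N13 a₁ a₂ a₃ = 5 * (9 * a₁ + (-5) * a₂ + a₃) ^ 2 + 13 * (5 * a₂ + (-1) * a₃) ^ 2 + 117 * a₃ ^ 2 := by
    unfold N13; ring
  have : 0 ≤ 45 * N13 a₁ a₂ a₃ := by rw [h]; positivity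
  omega

theorem N13_one (a₁ a₂ a₃ : ℤ) : 13 * a₁ ^ 2 ≤ 2 * N13 a₁ a₂ a₃ := by
  have h : 5 * (2 * N13 a₁ a₂ a₃ - 13 * a₁ ^ 2) = (5 * a₁ + (-10) * a₂ + 2 * a₃) ^ 2 + 26 * a₃ ^ 2 := by
    unfold N13; ring
  have : 0 ≤ 5 * (2 * N13 a₁ a₂ a₃ - 13 * a₁ ^ 2) := by rw [h]; positivity
  omega

theorem N13_two (a₁ a₂ a₃ : ℤ) : 13 * a₂ ^ 2 ≤ 2 * N13 a₁ a₂ a₃ := by
  have h : 9 * (2 * N13 a₁ a₂ a₃ - 13 * a₂ ^ 2) = 2 * (9 * a₁ + (-5) * a₂ + a₃) ^ 2 + 13 * (a₂ + (-2) * a₃) ^ 2 := by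
    unfold N13; ring
  have : 0 ≤ 9 * (2 * N13 a₁ a₂ a₃ - 13 * a₂ ^ 2) := by rw [h]; positivity
  omega

theorem N13_three (a₁ a₂ a₃ : ℤ) : 13 * a₃ ^ 2 ≤ 5 * N13 a₁ a₂ a₃ := by
  have h : 9 * (5 * N13 a₁ a₂ a₃ - 13 * a₃ ^ 2) = 5 * (9 * a₁ + (-5) * a₂ + a₃) ^ 2 + 13 * (5 * a₂ + (-1) * a₃) ^ 2 := by
    unfold N13; ring
  have : 0 ≤ 9 * (5 * N13 a₁ a₂ a₃ - 13 * a₃ ^ 2) := by rw [h]; positivity
  omega

/-- the box of the `11`-section -/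
def box11 (i j k : ℕ) : Bool :=
  let a₂ : ℤ := (i : ℤ) - 4
  let a₄ : ℤ := (j : ℤ) - 4
  let a₅ : ℤ := (k : ℤ) - 5
  let N : ℤ := N11 (a₂ + 1) a₂ (a₂ + a₄ - a₅) a₄ a₅
  decide (99 < N) || T11.any fun e =>
    Nat.beq e.1 (((a₂ + 1) + 53 * a₂ + 91 * (a₂ + a₄ - a₅) + 29 * a₄ + 16 * a₅) % 121).toNat &&
    (Nat.beq e.2.1 (((a₂ + 1) + 5 * a₂ - (a₂ + a₄ - a₅) + a₄ + 4 * a₅) % 11).toNat && Nat.beq e.2.2 N.toNat)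

theorem box11_ok : (List.range 9).all (fun i => (List.range 9).all fun j => (List.range 11).all fun k =>
    box11 i j k) = true := by
  decide +kernel

/-- the box of the `13`-section -/
def box13 (i j k : ℕ) : Bool :=
  let a₁ : ℤ := (i : ℤ) - 4
  let a₂ : ℤ := (j : ℤ) - 4
  let a₃ : ℤ := (k : ℤ) - 7
  let N : ℤ := N13 a₁ a₂ a₃
  decide (138 < N) || T13.any fun e =>
    Nat.beq e.1 ((a₁ + 11 * a₂ + 16 * a₃) % 169).toNat &&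
    (Nat.beq e.2.1 ((a₁ + 3 * a₂) % 13).toNat && Nat.ble e.2.2 N.toNat)

theorem box13_ok : (List.range 9).all (fun i => (List.range 9).all fun j => (List.range 15).all fun k =>
    box13 i j k) = true := by
  decide +kernel

theorem sq_le4 {a : ℤ} (h : a ^ 2 ≤ 24) : -4 ≤ a ∧ a ≤ 4 := by
  constructor <;> nlinarith

theorem sq_le5 {a : ℤ} (h : a ^ 2 ≤ 35) : -5 ≤ a ∧ a ≤ 5 := by
  constructor <;> nlinarith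

theorem sq_le7 {a : ℤ} (h : a ^ 2 ≤ 63) : -7 ≤ a ∧ a ≤ 7 := by
  constructor <;> nlinarith

theorem T11_one {a₁ a₂ a₃ a₄ a₅ : ℤ} (h1 : a₁ - 2 * a₂ + a₃ - a₄ + a₅ = 1) (h2 : a₁ - a₃ + a₄ - a₅ = 1)
    (hN : N11 a₁ a₂ a₃ a₄ a₅ ≤ 99) : ∃ e ∈ T11,
      (e.1 : ℤ) = (a₁ + 53 * a₂ + 91 * a₃ + 29 * a₄ + 16 * a₅) % 121 ∧
      (e.2.1 : ℤ) = (a₁ + 5 * a₂ - a₃ + a₄ + 4 * a₅) % 11 ∧ (e.2.2 : ℤ) = N11 a₁ a₂ a₃ a₄ a₅ := by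
  obtain rfl : a₁ = a₂ + 1 := by omega
  obtain rfl : a₃ = a₂ + a₄ - a₅ := by omega
  have h4 := sq_le4 (a := a₂) (by have := N11_two (a₂ + 1) a₂ (a₂ + a₄ - a₅) a₄ a₅; omega)
  have h5 := sq_le4 (a := a₄) (by have := N11_four (a₂ + 1) a₂ (a₂ + a₄ - a₅) a₄ a₅; omega)
  have h6 := sq_le5 (a := a₅) (by have := N11_five (a₂ + 1) a₂ (a₂ + a₄ - a₅) a₄ a₅; omega)
  have hb := box11_ok
  simp only [List.all_eq_true, List.mem_range] at hb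
  have hb := hb (a₂ + 4).toNat (by omega) (a₄ + 4).toNat (by omega) (a₅ + 5).toNat (by omega)
  unfold box11 at hb
  have e1 : (((a₂ + 4).toNat : ℕ) : ℤ) - 4 = a₂ := by omega
  have e2 : (((a₄ + 4).toNat : ℕ) : ℤ) - 4 = a₄ := by omega
  have e3 : (((a₅ + 5).toNat : ℕ) : ℤ) - 5 = a₅ := by omega
  simp only [e1, e2, e3, Bool.or_eq_true, decide_eq_true_eq, List.any_eq_true, Bool.and_eq_true] at hb
  rcases hb with hb | ⟨e, he, h7, h8, h9⟩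
  · omega
  · refine ⟨e, he, ?_, ?_, ?_⟩
    · rw [Nat.eq_of_beq_eq_true h7, Int.toNat_of_nonneg (Int.emod_nonneg _ (by norm_num))]
    · rw [Nat.eq_of_beq_eq_true h8, Int.toNat_of_nonneg (Int.emod_nonneg _ (by norm_num))]
    · rw [Nat.eq_of_beq_eq_true h9, Int.toNat_of_nonneg (N11_nonneg _ _ _ _ _)]

theorem T11_mem {c a₁ a₂ a₃ a₄ a₅ : ℤ} (hc : c = 1 ∨ c = -1) (h1 : a₁ - 2 * a₂ + a₃ - a₄ + a₅ = c)
    (h2 : a₁ - a₃ + a₄ - a₅ = c) (hN : N11 a₁ a₂ a₃ a₄ a₅ ≤ 99) : ∃ e ∈ T11,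
      (e.1 : ℤ) = (c * (a₁ + 53 * a₂ + 91 * a₃ + 29 * a₄ + 16 * a₅)) % 121 ∧
      (e.2.1 : ℤ) = (c * (a₁ + 5 * a₂ - a₃ + a₄ + 4 * a₅)) % 11 ∧ (e.2.2 : ℤ) = N11 a₁ a₂ a₃ a₄ a₅ := by
  rcases hc with rfl | rfl
  · obtain ⟨e, he, h3, h4, h5⟩ := T11_one h1 h2 hN
    exact ⟨e, he, by rw [h3, one_mul], by rw [h4, one_mul], h5⟩
  · have hn : N11 (-a₁) (-a₂) (-a₃) (-a₄) (-a₅) = N11 a₁ a₂ a₃ a₄ a₅ := by unfold N11; ring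
    obtain ⟨e, he, h3, h4, h5⟩ := T11_one (a₁ := -a₁) (a₂ := -a₂) (a₃ := -a₃) (a₄ := -a₄) (a₅ := -a₅) (by omega)
      (by omega) (by rw [hn]; exact hN)
    refine ⟨e, he, ?_, ?_, by rw [h5, hn]⟩
    · rw [h3]; congr 1; ring
    · rw [h4]; congr 1; ring

theorem T13_a {a₁ a₂ a₃ : ℤ} (hN : N13 a₁ a₂ a₃ ≤ 138) : ∃ e ∈ T13,
      (e.1 : ℤ) = (a₁ + 11 * a₂ + 16 * a₃) % 169 ∧
      (e.2.1 : ℤ) = (a₁ + 3 * a₂) % 13 ∧ (e.2.2 : ℤ) ≤ N13 a₁ a₂ a₃ := by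
  have h4 := sq_le4 (a := a₁) (by have := N13_one a₁ a₂ a₃; omega)
  have h5 := sq_le4 (a := a₂) (by have := N13_two a₁ a₂ a₃; omega)
  have h6 := sq_le7 (a := a₃) (by have := N13_three a₁ a₂ a₃; omega)
  have hb := box13_ok
  simp only [List.all_eq_true, List.mem_range] at hb
  have hb := hb (a₁ + 4).toNat (by omega) (a₂ + 4).toNat (by omega) (a₃ + 7).toNat (by omega)
  unfold box13 at hb
  have e1 : (((a₁ + 4).toNat : ℕ) : ℤ) - 4 = a₁ := by omega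
  have e2 : (((a₂ + 4).toNat : ℕ) : ℤ) - 4 = a₂ := by omega
  have e3 : (((a₃ + 7).toNat : ℕ) : ℤ) - 7 = a₃ := by omega
  simp only [e1, e2, e3, Bool.or_eq_true, decide_eq_true_eq, List.any_eq_true, Bool.and_eq_true] at hb
  rcases hb with hb | ⟨e, he, h7, h8, h9⟩
  · omega
  · refine ⟨e, he, ?_, ?_, ?_⟩
    · rw [Nat.eq_of_beq_eq_true h7, Int.toNat_of_nonneg (Int.emod_nonneg _ (by norm_num))]
    · rw [Nat.eq_of_beq_eq_true h8, Int.toNat_of_nonneg (Int.emod_nonneg _ (by norm_num))]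
    · have h10 := Nat.le_of_ble_eq_true h9
      have h11 := N13_nonneg a₁ a₂ a₃
      omega

/-- the multiples of a character of defect zero -/
def boxd (x y m l : ℕ) (j : ℕ) : Bool :=
  let k : ℤ := (j : ℤ) - l
  T13.any fun e => Nat.beq e.1 ((x * k) % 169).toNat &&
    (Nat.beq e.2.1 ((y * k) % 13).toNat && Nat.ble e.2.2 (m * k ^ 2).toNat)

theorem boxd1_ok : (List.range 7).all (boxd 13 10 13 3) = true := by decide +kernel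
theorem boxd2_ok : (List.range 7).all (boxd 26 2 13 3) = true := by decide +kernel
theorem boxd3_ok : (List.range 7).all (boxd 39 12 13 3) = true := by decide +kernel
theorem boxd4_ok : (List.range 9).all (boxd 26 11 6 4) = true := by decide +kernel

theorem sq_le3 {a : ℤ} (h : a ^ 2 ≤ 15) : -3 ≤ a ∧ a ≤ 3 := by
  constructor <;> nlinarith

theorem T13_d {x y m l : ℕ} (h : (List.range (2 * l + 1)).all (boxd x y m l) = true) {k : ℤ} (hk : -(l : ℤ) ≤ k ∧ k ≤ l) :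
    ∃ e ∈ T13, (e.1 : ℤ) = (x * k) % 169 ∧ (e.2.1 : ℤ) = (y * k) % 13 ∧ (e.2.2 : ℤ) ≤ m * k ^ 2 := by
  simp only [List.all_eq_true, List.mem_range] at h
  have hb := h (k + l).toNat (by omega)
  unfold boxd at hb
  have e1 : (((k + l).toNat : ℕ) : ℤ) - l = k := by omega
  simp only [e1, List.any_eq_true, Bool.and_eq_true] at hb
  obtain ⟨e, he, h7, h8, h9⟩ := hb
  refine ⟨e, he, ?_, ?_, ?_⟩
  · rw [Nat.eq_of_beq_eq_true h7, Int.toNat_of_nonneg (Int.emod_nonneg _ (by norm_num))]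
  · rw [Nat.eq_of_beq_eq_true h8, Int.toNat_of_nonneg (Int.emod_nonneg _ (by norm_num))]
  · have h10 := Nat.le_of_ble_eq_true h9
    have h11 : (0 : ℤ) ≤ m * k ^ 2 := by positivity
    omega

end Cfsg.Agent.H924.M23
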